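import Cfsg.Agent.H308.CA.Stmts

/-!
# S3852, CA6: `two_lin` (helper55)

* `finrank_irr` : an irreducible module of a finite `2`-group has dimension a power of `2` (any field);
* `exists_decomp` : decomposition into orthogonal idempotents commuting with the group;
* `two_lin` : `TwoSt (Ex F)`.
-/

set_option autoImplicit false
set_option linter.unusedSectionVars false

namespace Cfsg.Agent.H55.CA

open Module Cfsg.Agent.H308.CA

section rep

variable {F : Type*} [Field F] {V : Type*} [AddCommGroup V] [Module F V] {G : Type*} [Group G]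
  (φ : G →* (V →ₗ[F] V))

/-- invariance under a subgroup -/
def InvS (H : Subgroup G) (W : Submodule F V) : Prop := ∀ a ∈ H, ∀ w ∈ W, φ a w ∈ W

/-- irreducible subspaces for a subgroup -/
def IrrS (H : Subgroup G) (W : Submodule F V) : Prop :=
  InvS φ H W ∧ W ≠ ⊥ ∧ ∀ U ≤ W, InvS φ H U → U = ⊥ ∨ U = W

variable {φ}

theorem exists_irr [FiniteDimensional F V] {H : Subgroup G} {W : Submodule F V} (hW : InvS φ H W) (h0 : W ≠ ⊥) :
    ∃ U ≤ W, IrrS φ H U := by
  classical
  have hex : ∃ n, ∃ U ≤ W, InvS φ H U ∧ U ≠ ⊥ ∧ finrank F U = n := ⟨_, W, le_rfl, hW, h0, rfl⟩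
  obtain ⟨U, hUW, hU, hU0, hUn⟩ := Nat.find_spec hex
  refine ⟨U, hUW, hU, hU0, fun U' hU' hI => ?_⟩
  by_cases h : U' = ⊥
  · exact Or.inl h
  · refine Or.inr (Submodule.eq_of_le_of_finrank_le hU' ?_)
    rw [hUn]
    exact Nat.find_min' hex ⟨U', hU'.trans hUW, hI, h, rfl⟩

theorem mul_ap (a b : G) (v : V) : φ (a * b) v = φ a (φ b v) := by
  rw [map_mul]; rfl

theorem one_ap (v : V) : φ 1 v = v := by
  rw [map_one]; rfl

theorem inj_ap (a : G) : Function.Injective (φ a) := by
  intro v w h
  have h1 := congrArg (φ a⁻¹) h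
  rwa [← mul_ap, ← mul_ap, inv_mul_cancel, one_ap, one_ap] at h1

/-- an irreducible module of a finite `2`-group has dimension a power of `2` -/
theorem finrank_irr [FiniteDimensional F V] [Finite G] (hG : IsPGroup 2 G) (k : ℕ) :
    ∀ H : Subgroup G, Nat.card H = 2 ^ k → ∀ W : Submodule F V, IrrS φ H W → ∃ a : ℕ, finrank F W = 2 ^ a := by
  classical
  induction k with
  | zero =>
    intro H hH W hW
    rw [pow_zero, Subgroup.card_eq_one] at hH
    obtain ⟨w, hw, hw0⟩ := Submodule.exists_mem_ne_zero_of_ne_bot hW.2.1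
    refine ⟨0, ?_⟩
    have h1 : InvS φ H (Submodule.span F {w}) := by
      intro a ha v hv
      rw [hH, Subgroup.mem_bot] at ha
      rw [ha, one_ap]
      exact hv
    have h2 : Submodule.span F {w} ≤ W := by
      rw [Submodule.span_singleton_le_iff_mem]
      exact hw
    rcases hW.2.2 _ h2 h1 with h | h
    · exact absurd (Submodule.span_singleton_eq_bot.1 h) hw0
    · rw [← h, pow_zero]
      exact finrank_span_singleton hw0
  | succ k ih =>
    intro H hH W hW
    obtain ⟨K, hKH, hK⟩ := Sylow.exists_subgroup_le_card_pow_prime_of_le_card (n := k) (H := H) Nat.prime_two hG (by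
      rw [hH]
      exact Nat.pow_le_pow_right (by norm_num) (Nat.le_succ k))
    have hidx' : (K.subgroupOf H).index = 2 := by
      have h1 := Subgroup.card_mul_index (K.subgroupOf H)
      rw [Nat.card_congr (Subgroup.subgroupOfEquivOfLe hKH).toEquiv, hK, hH, pow_succ] at h1
      exact Nat.eq_of_mul_eq_mul_left (by positivity) h1
    -- elements outside
    have hne : ∃ t ∈ H, t ∉ K := by
      by_contra hcon
      push Not at hcon
      have h1 : K = H := le_antisymm hKH hcon
      rw [h1, hH] at hK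
      exact absurd hK (Nat.pow_lt_pow_right (by norm_num) (Nat.lt_succ_self k)).ne'
    obtain ⟨t, htH, htK⟩ := hne
    have hmul : ∀ a ∈ H, ∀ b ∈ H, (a * b ∈ K ↔ (a ∈ K ↔ b ∈ K)) := by
      intro a ha b hb
      have h1 := Subgroup.mul_mem_iff_of_index_two hidx' (a := ⟨a, ha⟩) (b := ⟨b, hb⟩)
      rw [Subgroup.mem_subgroupOf, Subgroup.mem_subgroupOf, Subgroup.mem_subgroupOf] at h1
      exact h1
    have hIK : InvS φ K W := fun a ha => hW.1 a (hKH ha)
    obtain ⟨U, hUW, hU⟩ := exists_irr hIK hW.2.1
    obtain ⟨a, ha⟩ := ih K hK U hU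
    set U' := U.map (φ t) with hU'
    have hU'W : U' ≤ W := by
      rintro _ ⟨u, hu, rfl⟩
      exact hW.1 t htH u (hUW hu)
    -- `K` stabilises `U'`
    have hKU' : InvS φ K U' := by
      rintro b hb _ ⟨u, hu, rfl⟩
      have h1 : t⁻¹ * b * t ∈ K := by
        have h3 : t⁻¹ ∉ K := fun h => htK (inv_mem_iff.1 h)
        have h2 : t⁻¹ * b ∉ K := by
          rw [hmul _ (inv_mem htH) _ (hKH hb)]
          tauto
        rw [hmul _ (mul_mem (inv_mem htH) (hKH hb)) _ htH]
        tauto
      refine ⟨φ (t⁻¹ * b * t) u, hU.1 _ h1 u hu, ?_⟩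
      rw [← mul_ap, ← mul_ap]
      congr 2
      group
    have hsup : U ⊔ U' = W := by
      have h1 : InvS φ H (U ⊔ U') := by
        intro b hb v hv
        obtain ⟨u, hu, u', hu', rfl⟩ := Submodule.mem_sup.1 hv
        rw [map_add]
        by_cases hbK : b ∈ K
        · exact Submodule.add_mem_sup (hU.1 b hbK u hu) (hKU' b hbK u' hu')
        · obtain ⟨w, hw, rfl⟩ := hu'
          rw [add_comm]
          refine Submodule.add_mem_sup ?_ ?_
          · rw [← mul_ap]
            refine hU.1 _ ?_ w hw
            rw [hmul _ hb _ htH]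
            tauto
          · refine ⟨φ (t⁻¹ * b) u, hU.1 _ ?_ u hu, ?_⟩
            · have h3 : t⁻¹ ∉ K := fun h => htK (inv_mem_iff.1 h)
              rw [hmul _ (inv_mem htH) _ hb]
              tauto
            · rw [← mul_ap, mul_inv_cancel_left]
      rcases hW.2.2 _ (sup_le hUW hU'W) h1 with h | h
      · exact absurd (eq_bot_iff.2 (le_sup_left.trans h.le)) hU.2.1
      · exact h
    have hfr : finrank F U' = finrank F U :=
      (Submodule.equivMapOfInjective (φ t) (inj_ap t) U).finrank_eq.symm
    rcases hU.2.2 (U ⊓ U') inf_le_left (fun b hb v hv => ⟨hU.1 b hb v hv.1, hKU' b hb v hv.2⟩) with h | h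
    · refine ⟨a + 1, ?_⟩
      have h1 := Submodule.finrank_sup_add_finrank_inf_eq U U'
      rw [h, hsup, finrank_bot, add_zero, hfr, ha] at h1
      rw [h1, pow_succ]
      ring
    · refine ⟨a, ?_⟩
      have h1 : U = U' := Submodule.eq_of_le_of_finrank_le (inf_eq_left.1 h) hfr.le
      rw [← hsup, ← h1, sup_idem, ha]

/-- Maschke: an equivariant projection -/
theorem exists_proj [Finite G] (hA : (Nat.card G : F) ≠ 0) (W : Submodule F V) (hW : InvS φ ⊤ W) :
    ∃ f : V →ₗ[F] V, (∀ v, f v ∈ W) ∧ (∀ w ∈ W, f w = w) ∧ ∀ g, φ g * f = f * φ g := by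
  classical
  let _ : Fintype G := Fintype.ofFinite G
  obtain ⟨W₁, hW₁⟩ := W.exists_isCompl
  let π : V →ₗ[F] V := W.subtype ∘ₗ W.projectionOnto W₁ hW₁
  have hπ : ∀ v, π v ∈ W := fun v => (W.projectionOnto W₁ hW₁ v).2
  have hπW : ∀ w ∈ W, π w = w := by
    intro w hw
    show ((W.projectionOnto W₁ hW₁ w : W) : V) = w
    rw [Submodule.projectionOnto_apply_left hW₁ ⟨w, hw⟩]
  let ρ : V →ₗ[F] V := ((Nat.card G : F)⁻¹) • ∑ a : G, (φ a ∘ₗ π ∘ₗ φ a⁻¹)
  have hρ : ∀ v, ρ v = ((Nat.card G : F)⁻¹) • ∑ a : G, φ a (π (φ a⁻¹ v)) := by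
    intro v
    simp [ρ]
  refine ⟨ρ, fun v => ?_, fun w hw => ?_, fun b => ?_⟩
  · rw [hρ]
    exact W.smul_mem _ (W.sum_mem fun a _ => hW a trivial _ (hπ _))
  · rw [hρ]
    have h1 : ∀ a : G, φ a (π (φ a⁻¹ w)) = w := by
      intro a
      rw [hπW _ (hW _ trivial _ hw), ← mul_ap, mul_inv_cancel, one_ap]
    rw [Finset.sum_congr rfl fun a _ => h1 a, Finset.sum_const, Finset.card_univ, ← Nat.card_eq_fintype_card,
      ← Nat.cast_smul_eq_nsmul F, smul_smul, inv_mul_cancel₀ hA, one_smul]
  · refine LinearMap.ext fun v => ?_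
    show φ b (ρ v) = ρ (φ b v)
    rw [hρ, hρ, map_smul, map_sum]
    congr 1
    refine Fintype.sum_equiv (Equiv.mulLeft b) _ _ ?_
    intro a
    show φ b (φ a (π (φ a⁻¹ v))) = φ (b * a) (π (φ (b * a)⁻¹ (φ b v)))
    rw [mul_ap, ← mul_ap (b * a)⁻¹ b, mul_inv_rev, inv_mul_cancel_right]

/-- decomposition of `1` into idempotents of rank a power of `2` which commute with the `2`-group -/
theorem exists_decomp [FiniteDimensional F V] [Finite G] (h2 : IsPGroup 2 G) (hF : (2 : F) ≠ 0) (n : ℕ) :
    ∀ p : V →ₗ[F] V, p * p = p → (∀ g, φ g * p = p * φ g) → finrank F (LinearMap.range p) = n →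
    ∃ (m : ℕ) (e : Fin m → (V →ₗ[F] V)), (∀ i, e i * e i = e i) ∧ (∀ i j, i ≠ j → e i * e j = 0) ∧ ∑ i, e i = p ∧
      (∀ i g, φ g * e i = e i * φ g) ∧ ∀ i, ∃ a : ℕ, finrank F (LinearMap.range (e i)) = 2 ^ a := by
  classical
  obtain ⟨k, hk⟩ := IsPGroup.iff_card.1 h2
  have hA : (Nat.card G : F) ≠ 0 := by
    rw [hk]
    push_cast
    exact pow_ne_zero _ hF
  have hkt : Nat.card (⊤ : Subgroup G) = 2 ^ k := by rw [Subgroup.card_top, hk]
  induction n using Nat.strong_induction_on with
  | _ n ih =>
    intro p hp hpφ hn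
    by_cases h0 : LinearMap.range p = ⊥
    · refine ⟨0, fun i => i.elim0, fun i => i.elim0, fun i => i.elim0, ?_, fun i => i.elim0, fun i => i.elim0⟩
      rw [LinearMap.range_eq_bot] at h0
      rw [h0]
      rfl
    · have hI : InvS φ ⊤ (LinearMap.range p) := by
        rintro g - _ ⟨v, rfl⟩
        exact ⟨φ g v, (LinearMap.congr_fun (hpφ g) v).symm⟩
      obtain ⟨U, hUp, hU⟩ := exists_irr hI h0
      obtain ⟨f, hf1, hf2, hf3⟩ := exists_proj hA U hU.1
      have hpf : p * f = f := by
        refine LinearMap.ext fun v => ?_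
        obtain ⟨w, hw⟩ := hUp (hf1 v)
        show p (f v) = f v
        rw [← hw]
        exact LinearMap.congr_fun hp w
      have hff : f * f = f := LinearMap.ext fun v => hf2 _ (hf1 v)
      -- the new idempotent
      have he1 : (f * p) * (f * p) = f * p := by
        calc (f * p) * (f * p) = f * (p * f) * p := by simp only [mul_assoc]
          _ = f * p := by rw [hpf, hff]
      have hpe : p * (f * p) = f * p := by rw [← mul_assoc, hpf]
      have hep : (f * p) * p = f * p := by rw [mul_assoc, hp]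
      have hq : (p - f * p) * (p - f * p) = p - f * p := by
        rw [sub_mul, mul_sub, mul_sub, hp, hpe, hep, he1, sub_self, sub_zero]
      have hr : LinearMap.range (f * p) = U := by
        apply le_antisymm
        · rintro _ ⟨v, rfl⟩
          exact hf1 _
        · intro u hu
          obtain ⟨w, hw⟩ := hUp hu
          refine ⟨u, ?_⟩
          show f (p u) = u
          have h1 : p u = u := by
            rw [← hw]
            exact LinearMap.congr_fun hp w
          rw [h1, hf2 u hu]
      have heφ : ∀ g, φ g * (f * p) = (f * p) * φ g := by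
        intro g
        rw [← mul_assoc, hf3, mul_assoc, hpφ, mul_assoc]
      have hqφ : ∀ g, φ g * (p - f * p) = (p - f * p) * φ g := by
        intro g
        rw [mul_sub, sub_mul, heφ, hpφ]
      have hlt : finrank F (LinearMap.range (p - f * p)) < n := by
        rw [← hn]
        apply Submodule.finrank_lt_finrank_of_lt
        rw [lt_iff_le_and_ne]
        constructor
        · rintro _ ⟨v, rfl⟩
          refine ⟨(p - f * p) v, ?_⟩
          have h1 : p * (p - f * p) = p - f * p := by rw [mul_sub, hp, hpe]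
          exact LinearMap.congr_fun h1 v
        · intro h
          obtain ⟨u, hu, hu0⟩ := Submodule.exists_mem_ne_zero_of_ne_bot hU.2.1
          have h1 : u ∈ LinearMap.range (p - f * p) := by rw [h]; exact hUp hu
          obtain ⟨v, hv⟩ := h1
          have h2 : (f * p) u = u := by
            have h3 : u ∈ LinearMap.range (f * p) := by rw [hr]; exact hu
            obtain ⟨w, hw⟩ := h3
            rw [← hw]
            exact LinearMap.congr_fun he1 w
          apply hu0
          rw [← h2, ← hv]
          have h3 : (f * p) * (p - f * p) = 0 := by rw [mul_sub, hep, he1, sub_self]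
          exact LinearMap.congr_fun h3 v
      obtain ⟨m, e, h1, h2', h3, h4, h5⟩ := ih _ hlt (p - f * p) hq hqφ rfl
      have hei : ∀ i, e i * (p - f * p) = e i := by
        intro i
        rw [← h3, Finset.mul_sum, Finset.sum_eq_single i (fun j _ hj => h2' i j (Ne.symm hj))
          (fun h => absurd (Finset.mem_univ i) h), h1]
      have hei' : ∀ i, (p - f * p) * e i = e i := by
        intro i
        rw [← h3, Finset.sum_mul, Finset.sum_eq_single i (fun j _ hj => h2' j i hj)
          (fun h => absurd (Finset.mem_univ i) h), h1]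
      have ho1 : ∀ i, e i * (f * p) = 0 := by
        intro i
        rw [← hei i, mul_assoc, sub_mul, hpe, he1, sub_self, mul_zero]
      have ho2 : ∀ i, (f * p) * e i = 0 := by
        intro i
        rw [← hei' i, ← mul_assoc, mul_sub, hep, he1, sub_self, zero_mul]
      refine ⟨m + 1, Fin.cons (f * p) e, ?_, ?_, ?_, ?_, ?_⟩
      · intro i
        refine Fin.cases ?_ (fun i => ?_) i
        · rw [Fin.cons_zero]; exact he1
        · rw [Fin.cons_succ]; exact h1 i
      · intro i j
        refine Fin.cases ?_ (fun i => ?_) i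
        · refine Fin.cases (fun h => absurd rfl h) (fun j => ?_) j
          intro _
          rw [Fin.cons_zero, Fin.cons_succ]
          exact ho2 j
        · refine Fin.cases ?_ (fun j => ?_) j
          · intro _
            rw [Fin.cons_zero, Fin.cons_succ]
            exact ho1 i
          · intro hij
            rw [Fin.cons_succ, Fin.cons_succ]
            exact h2' i j (fun h => hij (congrArg Fin.succ h))
      · rw [Fin.sum_univ_succ, Fin.cons_zero]
        simp only [Fin.cons_succ]
        rw [h3]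
        abel
      · intro i
        refine Fin.cases ?_ (fun i => ?_) i
        · rw [Fin.cons_zero]; exact heφ
        · rw [Fin.cons_succ]; exact h4 i
      · intro i
        refine Fin.cases ?_ (fun i => ?_) i
        · rw [Fin.cons_zero, hr]
          exact finrank_irr h2 k ⊤ hkt U hU
        · rw [Fin.cons_succ]; exact h5 i

end rep

section mat

open Matrix

variable {F : Type} [Field F] {ι : Type} [Fintype ι] [DecidableEq ι]

/-- the first projection -/
def fstH (F : Type) [Field F] : Ex F →+* F := (RingHom.fst F F : F × F →+* F)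

/-- the second projection -/
def sndH (F : Type) [Field F] : Ex F →+* F := (RingHom.snd F F : F × F →+* F)

theorem ex_ext {a b : Ex F} (h1 : fstH F a = fstH F b) (h2 : sndH F a = sndH F b) : a = b := Prod.ext h1 h2

theorem mat_ext {M N : Matrix ι ι (Ex F)} (h1 : M.map (fstH F) = N.map (fstH F))
    (h2 : M.map (sndH F) = N.map (sndH F)) : M = N := by
  ext i j
  exact ex_ext (congrFun (congrFun h1 i) j) (congrFun (congrFun h2 i) j)

/-- a matrix from its components -/
def pr (A B : Matrix ι ι F) : Matrix ι ι (Ex F) := fun i j => ((A i j, B i j) : F × F)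

theorem pr_fst (A B : Matrix ι ι F) : (pr A B).map (fstH F) = A := rfl

theorem pr_snd (A B : Matrix ι ι F) : (pr A B).map (sndH F) = B := rfl

theorem pr_mul (A B A' B' : Matrix ι ι F) : pr A B * pr A' B' = pr (A * A') (B * B') := by
  apply mat_ext
  · rw [Matrix.map_mul]; rfl
  · rw [Matrix.map_mul]; rfl

theorem star_pr (A B : Matrix ι ι F) : star (pr A B) = pr Bᵀ Aᵀ := rfl

theorem pr_zero : pr (0 : Matrix ι ι F) 0 = 0 := rfl

theorem pr_one : pr (1 : Matrix ι ι F) 1 = 1 := by
  apply mat_ext
  · rw [Matrix.map_one _ (map_zero _) (map_one _)]; rfl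
  · rw [Matrix.map_one _ (map_zero _) (map_one _)]; rfl

theorem pr_sum {κ : Type*} (s : Finset κ) (A B : κ → Matrix ι ι F) :
    ∑ i ∈ s, pr (A i) (B i) = pr (∑ i ∈ s, A i) (∑ i ∈ s, B i) := by
  classical
  induction s using Finset.induction_on with
  | empty => rw [Finset.sum_empty, Finset.sum_empty, Finset.sum_empty, pr_zero]
  | insert i s hi ih =>
    rw [Finset.sum_insert hi, Finset.sum_insert hi, Finset.sum_insert hi, ih]
    rfl

theorem card_fix [Finite F] {a : Matrix ι ι F} (ha : a * a = a) :
    Nat.card {v : ι → F // a *ᵥ v = v} = Nat.card F ^ a.rank := by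
  have e : {v : ι → F // a *ᵥ v = v} ≃ LinearMap.range a.mulVecLin :=
    Equiv.subtypeEquivRight fun v => by
      rw [LinearMap.mem_range]
      constructor
      · intro h
        exact ⟨v, h⟩
      · rintro ⟨w, rfl⟩
        rw [Matrix.mulVecLin_apply, Matrix.mulVec_mulVec, ha]
  rw [Nat.card_congr e, Module.natCard_eq_pow_finrank (K := F)]
  rfl

/-- a vector from its components -/
def vp (v w : ι → F) : ι → Ex F := fun i => ((v i, w i) : F × F)

/-- the fixed vectors of a matrix over `Ex F` -/
def fixEquiv (A B : Matrix ι ι F) :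
    {v : ι → Ex F // pr A B *ᵥ v = v} ≃ {v : ι → F // A *ᵥ v = v} × {v : ι → F // B *ᵥ v = v} where
  toFun v := (⟨fun i => fstH F (v.1 i), by
      funext i
      have h1 := congrArg (fstH F) (congrFun v.2 i)
      rw [RingHom.map_mulVec] at h1
      exact h1⟩, ⟨fun i => sndH F (v.1 i), by
      funext i
      have h1 := congrArg (sndH F) (congrFun v.2 i)
      rw [RingHom.map_mulVec] at h1
      exact h1⟩)
  invFun p := ⟨vp p.1.1 p.2.1, by
    funext i
    apply ex_ext
    · exact (RingHom.map_mulVec (fstH F) (pr A B) (vp p.1.1 p.2.1) i).trans (congrFun p.1.2 i)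
    · exact (RingHom.map_mulVec (sndH F) (pr A B) (vp p.1.1 p.2.1) i).trans (congrFun p.2.2 i)⟩
  left_inv v := rfl
  right_inv p := rfl

theorem rk_pr [Finite F] {a : Matrix ι ι F} (ha : a * a = a) : rk (pr a aᵀ) = a.rank := by
  have hat : aᵀ * aᵀ = aᵀ := by rw [← Matrix.transpose_mul, ha]
  have h1 : Nat.card (Ex F) = Nat.card F * Nat.card F := Nat.card_prod F F
  unfold rk
  rw [Nat.card_congr (fixEquiv a aᵀ), Nat.card_prod, card_fix ha, card_fix hat, Matrix.rank_transpose, h1, ← mul_pow]
  refine Nat.log_pow ?_ _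
  have h2 : 1 < Nat.card F := Finite.one_lt_card
  nlinarith

/-- **CA6** -/
theorem two_lin (F : Type) [Field F] [Finite F] : TwoSt (Ex F) := by
  intro h2 ι _ _ T hT
  classical
  have hF2 : (2 : F) ≠ 0 := by
    have h3 := h2.map (fstH F)
    rw [map_ofNat] at h3
    exact h3.ne_zero
  have hfin : Finite (SU ι (Ex F)) := Finite.of_injective mt mt_injective
  let φ : T →* ((ι → F) →ₗ[F] (ι → F)) :=
    { toFun := fun t => Matrix.toLin' ((mt (t : SU ι (Ex F))).map (fstH F))
      map_one' := by
        rw [Subgroup.coe_one, map_one, Matrix.map_one _ (map_zero _) (map_one _), Matrix.toLin'_one]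
        rfl
      map_mul' := fun s t => by
        rw [Subgroup.coe_mul, map_mul, Matrix.map_mul, Matrix.toLin'_mul]
        rfl }
  obtain ⟨m, e, h1, h3, h4, h5, h6⟩ := exists_decomp (φ := φ) hT hF2 _ 1 (one_mul 1) (fun g => by rw [mul_one, one_mul])
    rfl
  let a : Fin m → Matrix ι ι F := fun i => LinearMap.toMatrix' (e i)
  have ha1 : ∀ i, a i * a i = a i := by
    intro i
    show LinearMap.toMatrix' (e i) * LinearMap.toMatrix' (e i) = LinearMap.toMatrix' (e i)
    rw [← LinearMap.toMatrix'_mul, h1]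
  have ha3 : ∀ i j, i ≠ j → a i * a j = 0 := by
    intro i j hij
    show LinearMap.toMatrix' (e i) * LinearMap.toMatrix' (e j) = 0
    rw [← LinearMap.toMatrix'_mul, h3 i j hij, map_zero]
  have ha4 : ∑ i, a i = 1 := by
    show ∑ i, LinearMap.toMatrix' (e i) = 1
    rw [← map_sum, h4]
    exact LinearMap.toMatrix'_one
  refine ⟨m, fun i => pr (a i) (a i)ᵀ, fun i => ⟨?_, ?_⟩, ?_, ?_, ?_, ?_⟩
  · rw [pr_mul, ha1, ← Matrix.transpose_mul, ha1]
  · rw [star_pr, Matrix.transpose_transpose]
  · intro i j hij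
    rw [pr_mul, ha3 i j hij, ← Matrix.transpose_mul, ha3 j i hij.symm, Matrix.transpose_zero, pr_zero]
  · rw [pr_sum, ha4, ← Matrix.transpose_sum, ha4, Matrix.transpose_one, pr_one]
  · intro i t ht
    -- the first component
    have hc : (mt t).map (fstH F) * a i = a i * (mt t).map (fstH F) := by
      have h7 := congrArg LinearMap.toMatrix' (h5 i ⟨t, ht⟩)
      rw [LinearMap.toMatrix'_mul, LinearMap.toMatrix'_mul] at h7
      have h8 : LinearMap.toMatrix' (φ ⟨t, ht⟩) = (mt t).map (fstH F) := LinearMap.toMatrix'_toLin' _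
      rw [h8] at h7
      exact h7
    -- the second component is the inverse transpose
    have hs1 : ((mt t).map (sndH F))ᵀ * (mt t).map (fstH F) = 1 := by
      have h7 := congrArg (fun M => M.map (fstH F)) (star_mt_mul t)
      simp only [Matrix.map_mul, Matrix.map_one _ (map_zero (fstH F)) (map_one (fstH F))] at h7
      exact h7
    have hs2 : (mt t).map (fstH F) * ((mt t).map (sndH F))ᵀ = 1 := mul_eq_one_comm.1 hs1
    have hc2 : a i * ((mt t).map (sndH F))ᵀ = ((mt t).map (sndH F))ᵀ * a i := by
      calc a i * ((mt t).map (sndH F))ᵀ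
          = (((mt t).map (sndH F))ᵀ * (mt t).map (fstH F)) * a i * ((mt t).map (sndH F))ᵀ := by rw [hs1, one_mul]
        _ = ((mt t).map (sndH F))ᵀ * (a i * (mt t).map (fstH F)) * ((mt t).map (sndH F))ᵀ := by
            rw [← hc]; simp only [Matrix.mul_assoc]
        _ = ((mt t).map (sndH F))ᵀ * a i * ((mt t).map (fstH F) * ((mt t).map (sndH F))ᵀ) := by
            simp only [Matrix.mul_assoc]
        _ = ((mt t).map (sndH F))ᵀ * a i := by rw [hs2, mul_one]
    have hm : mt t = pr ((mt t).map (fstH F)) ((mt t).map (sndH F)) := mat_ext rfl rfl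
    rw [hm, pr_mul, pr_mul, hc]
    congr 1
    have h7 := congrArg Matrix.transpose hc2
    rw [Matrix.transpose_mul, Matrix.transpose_mul, Matrix.transpose_transpose] at h7
    exact h7
  · intro i
    obtain ⟨k, hk⟩ := h6 i
    refine ⟨k, ?_⟩
    rw [rk_pr (ha1 i), ← hk]
    show finrank F (LinearMap.range (a i).mulVecLin) = _
    have h7 : (a i).mulVecLin = e i := by
      rw [← Matrix.toLin'_apply']
      exact Matrix.toLin'_toMatrix' _
    rw [h7]

end mat

end Cfsg.Agent.H55.CA
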